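import Cfsg.Agent.H492.IMPair
import Cfsg.Agent.H678.PV.BlkVan

/-!
# Blocks of defect one from a pair of commuting elements (helper759; S4555, S4559)

`theta_of_pair` : `x`, `y` commute, generate a group of order `p²` containing the centralizer of `⟨x, y⟩`,
`|C_G(x)| = p² m`: a character of `C_G(x)` of degree divisible by `p`.
`vOrdP_of_pair` : the row of S4559 if in addition `p³ ∣ |G|`.
-/

set_option autoImplicit false

open Cfsg Cfsg.Agent.Characters.Core Cfsg.Agent.Blocks.Basic
open Cfsg.Agent.H713 Cfsg.Agent.H713.Count Cfsg.Agent.H33 Cfsg.Agent.H665.NoPQ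

namespace Cfsg.Agent.H759.PV

open Cfsg.Agent.H492.IMTools Cfsg.Agent.H678.PV Cfsg.Agent.H620.PNorm

universe u

variable {G : Type u} [Group G] [Finite G] {p : ℕ} [hp : Fact p.Prime]

theorem theta_of_pair {x y : G} (hx : orderOf x = p) (hy : orderOf y = p)
    (hcomm : y * x = x * y) (hyx : y ∉ Subgroup.zpowers x)
    (hxy : ∀ q : ℕ, q.Prime → q ≠ p →
      ¬ q ∣ Nat.card ↥(Subgroup.centralizer ({x} : Set G) ⊓ Subgroup.centralizer ({y} : Set G)))
    {m : ℕ} (hC : Nat.card (Subgroup.centralizer ({x} : Set G)) = p ^ 2 * m) (hpm : ¬ p ∣ m)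
    (s : Finset ℕ) (hs : ∀ n ∈ s, ¬ p ∣ n ∧ ∃ g : G, g * x = x * g ∧ orderOf g = n)
    (hcard : m % p ∣ p - 1 → m % p < s.card) :
    ∃ θ : IrrCharacter (Subgroup.centralizer ({x} : Set G)),
      (Nat.card (Subgroup.centralizer ({x} : Set G))).factorization p ≤
        (charDegree (θ : Subgroup.centralizer ({x} : Set G) → ℂ)).factorization p + 1 := by
  classical
  set C := Subgroup.centralizer ({x} : Set G) with hCdef
  set z : C := ⟨x, Subgroup.mem_centralizer_singleton_iff.2 rfl⟩ with hz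
  set y' : C := ⟨y, Subgroup.mem_centralizer_singleton_iff.2 hcomm⟩ with hy'
  have hzo : orderOf z = p := by rw [hz, Subgroup.orderOf_mk, hx]
  have hyo : orderOf y' = p := by rw [hy', Subgroup.orderOf_mk, hy]
  have hzc : ∀ c : C, c * z = z * c := fun c =>
    Subtype.ext (Subgroup.mem_centralizer_singleton_iff.1 c.2)
  have hnorm : (Subgroup.zpowers z).Normal := by
    refine ⟨fun n hn g => ?_⟩
    obtain ⟨k, rfl⟩ := hn
    have : g * z ^ k * g⁻¹ = z ^ k := by
      rw [((show Commute g z from hzc g).zpow_right k).eq, mul_inv_cancel_right]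
    show g * z ^ k * g⁻¹ ∈ _
    rw [this]
    exact ⟨k, rfl⟩
  have hm : m ≠ 0 := by rintro rfl; exact hpm (dvd_zero _)
  -- the quotient
  have hH : Nat.card (C ⧸ Subgroup.zpowers z) = p * m := by
    have h1 := Subgroup.card_eq_card_quotient_mul_card_subgroup (Subgroup.zpowers z)
    rw [hC, Nat.card_zpowers, hzo] at h1
    have h2 : p * (p * m) = p * Nat.card (C ⧸ Subgroup.zpowers z) := by
      rw [mul_comm p (Nat.card _), ← h1]; ring
    exact (Nat.eq_of_mul_eq_mul_left hp.out.pos h2).symm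
  have hHf : (Nat.card (C ⧸ Subgroup.zpowers z)).factorization p = 1 := by
    rw [hH, Nat.factorization_mul hp.out.ne_zero hm, Finsupp.add_apply,
      hp.out.factorization_self, Nat.factorization_eq_zero_of_not_dvd hpm]
  have hyb : orderOf (QuotientGroup.mk y' : C ⧸ Subgroup.zpowers z) = p := by
    apply orderOf_eq_prime
    · have : (QuotientGroup.mk y' : C ⧸ Subgroup.zpowers z) ^ p = QuotientGroup.mk (y' ^ p) := rfl
      rw [this, ← hyo, pow_orderOf_eq_one]
      rfl
    · intro h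
      rw [QuotientGroup.eq_one_iff] at h
      obtain ⟨k, hk⟩ := h
      apply hyx
      refine ⟨k, ?_⟩
      have := congrArg Subtype.val hk
      exact this
  have hq : ∀ q : ℕ, q.Prime → q ≠ p → ¬ q ∣ Nat.card (Subgroup.centralizer ({y'} : Set C)) := by
    intro q hq hne hd
    refine hxy q hq hne (hd.trans (dvd_of_eq ?_))
    apply Nat.card_congr
    refine
      { toFun := fun c => ⟨c.1.1, c.1.2, ?_⟩
        invFun := fun c => ⟨⟨c.1, c.2.1⟩, ?_⟩
        left_inv := fun _ => rfl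
        right_inv := fun _ => rfl }
    · have h1 := Subgroup.mem_centralizer_singleton_iff.1 c.2
      exact Subgroup.mem_centralizer_singleton_iff.2 (congrArg Subtype.val h1)
    · rw [Subgroup.mem_centralizer_singleton_iff]
      exact Subtype.ext (Subgroup.mem_centralizer_singleton_iff.1 c.2.2)
  have hpg := isPGroup_centralizer_mk (p := p) (by rw [← hzo]; exact pow_orderOf_eq_one z) hzc hq
  have hcb : Nat.card (Subgroup.centralizer
      ({(QuotientGroup.mk y' : C ⧸ Subgroup.zpowers z)} : Set (C ⧸ Subgroup.zpowers z))) = p := by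
    obtain ⟨k, hk⟩ := IsPGroup.iff_card.1 hpg
    have h1 : p ∣ p ^ k := by
      rw [← hk, ← hyb, ← Subgroup.orderOf_mk _ (Subgroup.mem_centralizer_singleton_iff.2 rfl)]
      exact orderOf_dvd_natCard _
    have h2 : p ^ k ∣ p * m := by rw [← hk, ← hH]; exact Subgroup.card_subgroup_dvd_card _
    have h3 : k = 1 := by
      rcases Nat.lt_trichotomy k 1 with h | h | h
      · have : k = 0 := by omega
        rw [this, pow_zero] at h1
        exact absurd (Nat.le_of_dvd one_pos h1) (by have := hp.out.one_lt; omega)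
      · exact h
      · exfalso
        apply hpm
        have h4 : p ^ 2 ∣ p * m := (pow_dvd_pow p h).trans h2
        rw [pow_two] at h4
        exact Nat.dvd_of_mul_dvd_mul_left hp.out.pos h4
    rw [hk, h3, pow_one]
  have hdiv : Nat.card (C ⧸ Subgroup.zpowers z) / p = m := by
    rw [hH, Nat.mul_div_cancel_left _ hp.out.pos]
  have hlt : m % p < s.card := by
    apply hcard
    have h1 := card_fus_eq hHf hyb (c := 1) (by rw [hcb, mul_one]) (e := m % p) (by
      intro k hk h
      rw [mul_one, hdiv, Nat.mod_eq_of_lt hk] at h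
      exact h)
    exact Dvd.intro _ h1.2
  have hdz : HasDZ p (C ⧸ Subgroup.zpowers z) := hasDZ_of_orders hHf hyb hcb s (by
    intro n hn
    obtain ⟨h1, g, hg, hgn⟩ := hs n hn
    refine ⟨h1, QuotientGroup.mk ⟨g, Subgroup.mem_centralizer_singleton_iff.2 hg⟩, ?_⟩
    set g' : C := ⟨g, Subgroup.mem_centralizer_singleton_iff.2 hg⟩ with hg'
    have hgo : orderOf g' = n := by rw [hg', Subgroup.orderOf_mk, hgn]
    have h2 : orderOf (QuotientGroup.mk g' : C ⧸ Subgroup.zpowers z) ∣ n := by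
      rw [← hgo]
      exact orderOf_map_dvd (QuotientGroup.mk' (Subgroup.zpowers z)) g'
    apply Nat.dvd_antisymm h2
    set o := orderOf (QuotientGroup.mk g' : C ⧸ Subgroup.zpowers z) with ho
    have h3 : g' ^ o ∈ Subgroup.zpowers z := by
      rw [← QuotientGroup.eq_one_iff]
      have : (QuotientGroup.mk (g' ^ o) : C ⧸ Subgroup.zpowers z) =
        (QuotientGroup.mk g' : C ⧸ Subgroup.zpowers z) ^ o := rfl
      rw [this, ho, pow_orderOf_eq_one]
    have h4 : (g' ^ o) ^ p = 1 := by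
      obtain ⟨k, hk⟩ := h3
      rw [← hk]
      show (z ^ k) ^ p = 1
      rw [← zpow_natCast, ← zpow_mul, mul_comm, zpow_mul, zpow_natCast, ← hzo, pow_orderOf_eq_one, one_zpow]
    rw [← pow_mul] at h4
    have h5 : n ∣ o * p := by rw [← hgo]; exact orderOf_dvd_of_pow_eq_one h4
    exact (Nat.Coprime.dvd_of_dvd_mul_right ((Nat.Prime.coprime_iff_not_dvd hp.out).2 h1).symm h5))
    (by rw [hdiv]; exact hlt)
  obtain ⟨χ, hχ⟩ := hdz
  refine ⟨⟨(χ : C ⧸ Subgroup.zpowers z → ℂ) ∘ QuotientGroup.mk' (Subgroup.zpowers z),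
    isIrr_comp _ (QuotientGroup.mk'_surjective _) χ.2⟩, ?_⟩
  have h2 : charDegree ((χ : C ⧸ Subgroup.zpowers z → ℂ) ∘ QuotientGroup.mk' (Subgroup.zpowers z)) =
      charDegree (χ : C ⧸ Subgroup.zpowers z → ℂ) := by
    unfold charDegree
    rw [Function.comp_apply, map_one]
  show _ ≤ (charDegree ((χ : C ⧸ Subgroup.zpowers z → ℂ) ∘ QuotientGroup.mk' (Subgroup.zpowers z))).factorization p + 1
  rw [h2, hχ, hHf, hC, Nat.factorization_mul (pow_ne_zero _ hp.out.ne_zero) hm,
      Finsupp.add_apply, Nat.factorization_eq_zero_of_not_dvd hpm, hp.out.factorization_pow,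
      Finsupp.single_eq_same]

/-- an element of order `p` in the centre of a Sylow `p`-subgroup -/
theorem exists_central {k : ℕ} (hk : 0 < k) (hd : p ^ k ∣ Nat.card G) :
    ∃ y : G, orderOf y = p ∧ p ^ k ∣ Nat.card (Subgroup.centralizer ({y} : Set G)) := by
  obtain ⟨P⟩ : Nonempty (Sylow p G) := inferInstance
  have hcard : p ^ k ∣ Nat.card P := Sylow.pow_dvd_card_of_pow_dvd_card P hd
  have hnt : Nontrivial P := by
    rw [← Finite.one_lt_card_iff_nontrivial]
    have h1 : p ^ 1 ≤ Nat.card P := Nat.le_of_dvd Nat.card_pos ((pow_dvd_pow p hk).trans hcard)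
    have h2 := hp.out.one_lt
    rw [pow_one] at h1
    omega
  have hc := P.2.center_nontrivial
  have hpc : p ∣ Nat.card (Subgroup.center P) := by
    obtain ⟨n, hn⟩ := IsPGroup.iff_card.1 (P.2.to_subgroup (Subgroup.center P))
    have h1 : 1 < Nat.card (Subgroup.center P) := Finite.one_lt_card_iff_nontrivial.2 hc
    rcases Nat.eq_zero_or_pos n with rfl | h
    · rw [hn, pow_zero] at h1; omega
    · rw [hn]; exact dvd_pow_self p h.ne'
  obtain ⟨c, hc'⟩ := exists_prime_orderOf_dvd_card' p hpc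
  refine ⟨((c : P) : G), ?_, ?_⟩
  · rw [Subgroup.orderOf_coe, Subgroup.orderOf_coe, hc']
  · refine hcard.trans (Subgroup.card_dvd_of_le ?_)
    intro g hg
    rw [Subgroup.mem_centralizer_singleton_iff]
    exact congrArg Subtype.val (Subgroup.mem_center_iff.1 c.2 ⟨g, hg⟩)

/-- **The row from a pair.** -/
theorem vOrdP_of_pair {x y : G} (hx : orderOf x = p) (hy : orderOf y = p)
    (hcomm : y * x = x * y) (hyx : y ∉ Subgroup.zpowers x)
    (hxy : ∀ q : ℕ, q.Prime → q ≠ p →
      ¬ q ∣ Nat.card ↥(Subgroup.centralizer ({x} : Set G) ⊓ Subgroup.centralizer ({y} : Set G)))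
    {m : ℕ} (hC : Nat.card (Subgroup.centralizer ({x} : Set G)) = p ^ 2 * m) (hpm : ¬ p ∣ m)
    (s : Finset ℕ) (hs : ∀ n ∈ s, ¬ p ∣ n ∧ ∃ g : G, g * x = x * g ∧ orderOf g = n)
    (hcard : m % p ∣ p - 1 → m % p < s.card) (hG : p ^ 3 ∣ Nat.card G) : VOrdP p G := by
  obtain ⟨θ, hθ⟩ := theta_of_pair hx hy hcomm hyx hxy hC hpm s hs hcard
  obtain ⟨M, hM⟩ := Cfsg.Agent.Blocks.Knorr.exists_isPModular p
  obtain ⟨B, hB, hQ⟩ := exists_block_one hM hx θ hθ
  obtain ⟨c, hc, hc3⟩ := exists_central (p := p) (G := G) (k := 3) (by norm_num) hG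
  refine ⟨c, hc, vz_of_card_ne hM hB hQ ⟨1, by rw [hc, pow_one]⟩ fun z hz hzo => ?_⟩
  rw [card_centralizer_zpowers hx hz (hzo.trans hc), hC]
  intro h
  rw [← h, pow_succ] at hc3
  exact hpm (Nat.dvd_of_mul_dvd_mul_left (pow_pos hp.out.pos 2) hc3)

end Cfsg.Agent.H759.PV
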